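import Cfsg.Agent.BZ.Lab.Defs2
import Cfsg.Agent.BZ.Lab.St
import Cfsg.Agent.BZ.Lab.Uf
import Cfsg.Agent.BZ.Lab.Orb
import Cfsg.Agent.BZ.Lab.Start
import Cfsg.Agent.BZ.Lab.Def
import Cfsg.Agent.H649.LocalDefect
import Cfsg.Agent.TO.Can2

/-!
# BZ / Lab: the defect groups without splitting (helper33)

Descent from `C(O_l Z C(P))` to `C(D')` by the height functional, the isometry in `C(D')`, a maximal pair above `(D', f)`.
-/

set_option autoImplicit false
set_option maxHeartbeats 200000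
set_option linter.unusedSectionVars false

namespace Cfsg.Agent.BZ.Lab

namespace D2

open Cfsg Subgroup Cfsg.Agent.HZ.Gen Cfsg.Agent.Characters Cfsg.Agent.Characters.Core Cfsg.Agent.Blocks Cfsg.Agent.Blocks.Basic
  Cfsg.Agent.Blocks.Local Cfsg.Agent.OddOrderCharacters.VChar Cfsg.Agent.KM

variable {l r m n N : ℕ} {M : Ideal AlgInt}

/-- maximality passes to the blocks of `C(A)` below -/
theorem monoA (hMo : BoxMono) (hM : IsPModular l M) (k : ℕ) : ∀ {K C : Type} [Group K] [Fintype K] [Group C] [Fintype C]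
    {α : MulAut K} {γ : MulAut C} {κ : C →* K} {P A : Subgroup K}, Nat.card K = k → Fr l r m n N K α → Emb κ γ α →
    IsPGroup l A → (∀ x ∈ A, α x = x) → BK.Ab A → κ.range = centralizer (A : Set K) → P ≤ κ.range →
    ∀ {χ : IrrCharacter K} {η : IrrCharacter C}, St α (χ : K → ℂ) → St γ (η : C → ℂ) → Up l M κ η χ →
      MxP r M α (χ : K → ℂ) P → MxP r M γ (η : C → ℂ) (P.comap κ) := by
  induction k using Nat.strong_induction_on with | _ k ih => ?_
  intro K C _ _ _ _ α γ κ P A hk h e hA hf hab hκ hP χ η h1 h2 h3 h4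
  classical
  have := isPrime_of_isPModular hM
  have : Fact l.Prime := ⟨h.lp⟩
  by_cases hc : A ≤ center K
  · exact hMo h hM e 1 ⟨0, orderOf_one⟩ (by
      rw [hκ, map_one, centralizer_eq_top_iff_subset.2 hc]
      exact (centralizer_eq_top_iff_subset.2 (Set.singleton_subset_iff.2 (one_mem _))).symm) hP h1 h2 h3 h4
  obtain ⟨t, ht, h5⟩ := SetLike.not_le_iff_exists.1 hc
  let T := centralizer ({t} : Set K)
  have hT : StS α T := fun g => by
    simp only [T, mem_centralizer_singleton_iff]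
    rw [← α.apply_eq_iff_eq (x := g * t), map_mul, map_mul, hf t ht]
  have h6 : ∀ c, κ c ∈ T := fun c => mem_cen.2 ((hκ ▸ ⟨c, rfl⟩ : κ c ∈ centralizer (A : Set K)) t ht).symm
  have h7 : A ≤ T := fun a ha => mem_cen.2 (hab a ha t ht)
  have h8 : P ≤ T := hP.trans (by rintro _ ⟨c, rfl⟩; exact h6 c)
  have e' : Emb (κ.codRestrict T h6) γ hT.res := ⟨fun a b h9 => e.inj (congrArg Subtype.val h9), fun y => Subtype.ext (e.cm y)⟩
  have h9 : (κ.codRestrict T h6).range = centralizer ((A.subgroupOf T : Subgroup T) : Set T) := by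
    ext c
    rw [Start.cen_sub h7, ← hκ]
    exact ⟨fun ⟨y, h4⟩ => ⟨y, congrArg Subtype.val h4⟩, fun ⟨y, h4⟩ => ⟨y, Subtype.ext h4⟩⟩
  obtain ⟨ζ, h10⟩ := boxUp.ex hM e'.inj ⟨_, hA.comap_subtype, h9.le, fun y hy _ => h9 ▸ hy⟩ η
  obtain ⟨χ', h11⟩ := boxUp.ex hM (subtype_injective T) ⟨zpowers t, hA.to_le (zpowers_le.2 ht),
    (range_subtype _).le.trans (TO.Cn.Cu_eq t).le, fun y hy _ => (range_subtype _).ge ((TO.Cn.Cu_eq t).ge hy)⟩ ζ
  have h12 := Start.st_of_up boxUp (h.toGl.sub hT.emb) hM e' h2 h10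
  exact ih _ (hk ▸ lt_of_le_of_ne (card_le_card_group T) fun h13 => h5 (mem_center_iff.2 fun g =>
    mem_cen.1 ((eq_top_of_card_eq T h13).symm ▸ mem_top g : g ∈ T))) rfl (h.sub hT.emb) e' hA.comap_subtype
    (fun x hx => Subtype.ext (hf x hx)) (fun x hx y hy => Subtype.ext (hab x hx y hy)) h9 (P := P.comap T.subtype)
    (fun x hx => by
      obtain ⟨c, h13⟩ := hP hx
      exact ⟨c, Subtype.ext h13⟩) h12 h2 h10
    (hMo h hM hT.emb ⟨t, h7 ht⟩ (by rw [orderOf_mk]; exact ord_of_mem hA ht) (range_subtype _) (by rwa [range_subtype]) h1 h12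
      (boxUp.congr hM (sameBlock_refl _) (boxUp.uniq hM (boxUp.trans hM e'.inj h10 (subtype_injective T) h11) h3) h11) h4)

variable {K L : Type} [Group K] [Fintype K] [Group L] [Fintype L] {α : MulAut K} {β : MulAut L} {ι : L →* K} {P : Subgroup K}

theorem rdef (h : Fr l r m n N K α) {R : Ideal AlgInt} (hR : IsPModular r R) (hP : IsPGroup r P) (hι : Function.Injective ι)
    (hL : ι.range = centralizer (P : Set K)) {η : IrrCharacter K} {μ : IrrCharacter L} (hη : St α (η : K → ℂ))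
    (hT : Tight r ι P (μ : L → ℂ)) (h0 : classInner (rs r P η ∘ ι) μ ≠ 0) : IsDefectGroup r R (blockOf R (η : K → ℂ)) P := by
  classical
  have : Fact r.Prime := ⟨h.rp⟩
  obtain ⟨e, he⟩ := Ob.exists_e hι hL
  exact Ob.dfg h.bg h.bdr hP (boxSt.rat h η hη) hR (Ob.tight_tr e he hT)
    (Ob.ind_of h.bg h.bdr hP (boxSt.rat h η hη) hR rfl e he h0)

variable {b : Set (IrrCharacter L)} {c : Set (IrrCharacter K)} {e : IrrCharacter L → IrrCharacter K} {s : IrrCharacter L → ℤ}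

theorem defect_eq (hM : IsPModular l M) (hb : IsPBlock M b) (hc : IsPBlock M c) (I : IsoD l r α ι P b c e s) :
    blockDefect l c = blockDefect l b := by
  obtain ⟨χ, h1, h2, h3⟩ := H592.Defect.exists_height_zero l hM hb
  obtain ⟨η, h4, h5, h6⟩ := H592.Defect.exists_height_zero l hM hc
  obtain ⟨μ, h7, rfl⟩ := I.img.le h4
  have h8 := h2 μ h7
  have h9 := h5 (e χ) (I.img.ge ⟨χ, h1, rfl⟩)
  have h10 := I.df χ h1
  have h11 := I.df μ h7
  omega

theorem sg_ne (I : IsoD l r α ι P b c e s) {μ : IrrCharacter L} (h : μ ∈ b) : (s μ : ℂ) ≠ 0 := by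
  rcases I.sg μ h with h1 | h1 <;> simp [h1]

theorem inner_ne (I : IsoD l r α ι P b c e s) {μ : IrrCharacter L} (h : μ ∈ b) : classInner (rs r P (e μ) ∘ ι) μ ≠ 0 := by
  rw [show rs r P (e μ) ∘ ι = (s μ : ℂ) • (μ : L → ℂ) from funext (I.rs μ h), classInner_smul_left, classInner_irr_self μ.2, mul_one]
  exact sg_ne I h

/-- **the descent to `C(A)`** -/
theorem descend (hS : BoxSec2) (hM : IsPModular l M) (h : Fr l r m n N K α) (hP : IsPGroup r P)
    (hL : ι.range = centralizer (P : Set K)) {η : IrrCharacter K} {μ : IrrCharacter L} (hη : St α (η : K → ℂ))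
    (I : IsoD l r α ι P (blockOf M (μ : L → ℂ)) (blockOf M (η : K → ℂ)) e s) {A : Subgroup K} (hA : IsPGroup l A) (hs : StS α A)
    (hab : BK.Ab A) {J L₀ : Type} [Group J] [Fintype J] [Group L₀] [Fintype L₀] {γ : MulAut J} {κ : J →* K} (E : Emb κ γ α)
    (hκ : κ.range = centralizer (A : Set K)) (hPκ : P ≤ κ.range) {j : L₀ →* L} (hj : Function.Injective j) {i : L₀ →* J}
    (hi : Function.Injective i) (hsq : ∀ y, κ (i y) = ι (j y)) (hi' : i.range = centralizer ((P.comap κ : Subgroup J) : Set J))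
    {φ : IrrCharacter L₀} (hu : Up l M j φ μ) : ∃ (ζ : IrrCharacter J) (φ' : IrrCharacter L₀), St γ (ζ : J → ℂ) ∧ Up l M κ ζ η ∧
      SameBlock M (φ : L₀ → ℂ) φ' ∧ classInner (rs r (P.comap κ) ζ ∘ i) φ' ≠ 0 := by
  have := isPrime_of_isPModular hM
  have : Fact r.Prime := ⟨h.rp⟩
  obtain ⟨χ, h1, h2, -⟩ := H592.Defect.exists_height_zero l hM (isPBlock_blockOf (M := M) μ)
  have h3 : blockHeight l (blockOf M (μ : L → ℂ)) (χ : L → ℂ) = 0 :=
    Nat.sub_eq_zero_of_le (le_csInf ⟨_, χ, h1, rfl⟩ (by rintro _ ⟨x, hx, rfl⟩; exact h2 x hx))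
  have h4 : e χ ∈ blockOf M (η : K → ℂ) := I.img.ge ⟨χ, h1, rfl⟩
  obtain ⟨T, d, h5, h6⟩ := hS h.toGl hM E hA hs hab hκ (e χ) (boxSt.blk h.toGl hM η hη _ h4)
  have h' := h.sub E
  have hP' : IsPGroup r (P.comap κ) := hP.comap_of_injective κ E.inj
  have g1 := fun ζ hζ => h'.bg.rs_gen hP' (boxSt.rat h' ζ (h5 ζ hζ).1) h.bdr hi hi'
  by_contra hn
  push Not at hn
  have h7 : uf l (φ : L₀ → ℂ) (fun y => ∑ ζ ∈ T, (d ζ : ℂ) * (rs r (P.comap κ) ζ ∘ i) y) = 0 := by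
    rw [uf_sum]
    refine Finset.sum_eq_zero fun ζ hζ => ?_
    have h7 := sec_zero boxUf hM (gen_isClassFunction (g1 ζ hζ)) (fun φ' => hn ζ φ' (h5 ζ hζ).1
      (boxUp.congr hM (sameBlock_refl _) (sameBlock_symm h4) (h5 ζ hζ).2)) (one_mem _)
    simp only [one_mul] at h7
    rw [uf_eq, show tc l (rs r (P.comap κ) ζ ∘ i) = _ from rfl, h7, mul_zero, zero_div, mul_zero]
  have h8 := boxUf.cong hM φ (f := (fun y => ∑ _ ∈ ({0} : Finset ℕ), (s χ : ℂ) * ((χ : L → ℂ) ∘ j) y) -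
      fun y => ∑ ζ ∈ T, (d ζ : ℂ) * (rs r (P.comap κ) ζ ∘ i) y) (fun x y => by
      simp only [Pi.sub_apply, Finset.sum_singleton, Function.comp_apply (f := (χ : L → ℂ)), map_mul, map_inv, irr_conj χ.2]
      exact congrArg _ (Finset.sum_congr rfl fun ζ hζ => by rw [gen_isClassFunction (g1 ζ hζ)])) fun y hy => by
    have h8 : ι (j y) ∈ centralizer (P : Set K) := hL ▸ ⟨_, rfl⟩
    obtain ⟨a, ha, e1, e2⟩ := h.bg.gel_spec hP h.nr h8
    obtain ⟨a, rfl⟩ := hPκ ha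
    have h9 : i y ∈ centralizer ((P.comap κ : Subgroup J) : Set J) := hi' ▸ ⟨_, rfl⟩
    rw [← hsq, ← map_mul] at e1 e2
    have h10 := h6 (a * i y) (by
      rwa [reg_mul h.lp (h9 a ha) (not_dvd_of_r h.lp h.rp h.ne (ord_of_mem hP' ha)), orderOf_injective i hi])
    have h11 : ∑ ζ ∈ T, (d ζ : ℂ) * (rs r (P.comap κ) ζ ∘ i) y = ∑ ζ ∈ T, (d ζ : ℂ) * (ζ : J → ℂ) (a * i y) :=
      Finset.sum_congr rfl fun ζ hζ => congrArg _ (h'.bg.rs_eq hP' (boxSt.rat h' ζ (h5 ζ hζ).1) h.bdr h9 ha (by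
        rw [cen_comap E.inj hPκ]
        exact gn_map E.inj e2))
    rw [Pi.sub_apply, Finset.sum_singleton, h11, Function.comp_apply, ← I.rs χ h1, ← hsq, rs, e1]
    exact h10
  rw [uf_sub, h7, sub_zero, uf_sum, Finset.sum_singleton] at h8
  refine (boxUf.ht hM h1).2 h3 ((memLocalIdeal_iff_of_sub (boxUf.up hM hj (gen_of_irr χ.2) hu)).1 ?_)
  rcases I.sg χ h1 with h9 | h9
  · simpa [h9] using h8
  · simpa [h9, memLocalIdeal_neg_iff] using h8

/-- an automorphism which stabilises the block is, up to an inner automorphism, local -/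
theorem loc (h : Fr l r m n N K α) (hP : IsPGroup r P) (hι : Function.Injective ι) (hL : ι.range = centralizer (P : Set K))
    (hc : StB α c) (I : IsoD l r α ι P b c e s) (σ : MulAut K) {φ : IrrCharacter L} (hφ : φ ∈ b)
    (hσ : H649.irrMap σ (e φ) ∈ c) : ∃ x : K, P.map (MulAut.conj x * σ : MulAut K).toMonoidHom = P ∧ ∃ φ' ∈ b,
      ∀ τ : L ≃* L, (∀ y, ι (τ y) = x * σ (ι y) * x⁻¹) → ∀ y, (φ' : L → ℂ) (τ y) = (φ : L → ℂ) y := by
  have : Fact r.Prime := ⟨h.rp⟩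
  obtain ⟨R, hR⟩ := ExistsModular.exists_isPModular h.rp
  have := isPrime_of_isPModular hR
  obtain ⟨φ', h1, h2⟩ := I.img.le hσ
  have h3 : ∀ μ ∈ b, St α (e μ : K → ℂ) := fun μ hμ => hc _ (I.img.ge ⟨μ, hμ, rfl⟩)
  have h4 := fun μ hμ => rdef h hR hP hι hL (h3 μ hμ) (I.tight μ hμ) (inner_ne I hμ)
  have h5 := H649.isDefectGroup_blkMap (e := σ) (h4 φ hφ)
  rw [H649.blkMap_blockOf] at h5
  have h5' := h4 φ' h1
  rw [h2] at h5'
  obtain ⟨x, hx⟩ := H644.exists_conj_of_isDefectGroup hR (isPBlock_blockOf (H649.irrMap σ (e φ))) h5 h5'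
  replace hx : P.map (MulAut.conj x * σ : MulAut K).toMonoidHom = P := (map_map _ _ _).symm.trans hx
  refine ⟨x, hx, φ', h1, fun τ hτ => ?_⟩
  have h6 : (e φ' : K → ℂ) ∘ (MulAut.conj x * σ : MulAut K).toMonoidHom = e φ := funext fun y => by
    rw [h2]
    exact (irr_conj (H649.irrMap σ (e φ)).2 _ x).trans (H649.irrMap_apply' σ _ y)
  have h7 : (s φ' : ℂ) • ((φ' : L → ℂ) ∘ τ.toMonoidHom) = (s φ : ℂ) • (φ : L → ℂ) := funext fun y => by
    have h7 := h.bg.rs_comp (ι := (MulAut.conj x * σ : MulAut K).toMonoidHom) (MulEquiv.injective _) hP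
      (boxSt.rat h _ (h3 φ' h1)) h.bdr (by rw [h6]; exact boxSt.rat h _ (h3 φ hφ)) h.bdr (hL.le ⟨y, rfl⟩ : ι y ∈ _)
    rw [h6, hx, I.rs φ hφ] at h7
    exact (I.rs φ' h1 _).symm.trans ((congrArg _ (hτ y)).trans h7.symm)
  by_contra h8
  have h9 : classInner _ (φ : L → ℂ) = classInner _ (φ : L → ℂ) := congrArg (fun f => classInner f (φ : L → ℂ)) h7
  rw [classInner_smul_left, classInner_smul_left, classInner_irr_ne (isIrr_comp τ.toMonoidHom τ.surjective φ'.2) φ.2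
    fun h10 => h8 fun y => congrFun h10 y, classInner_irr_self φ.2, mul_zero, mul_one] at h9
  exact sg_ne I hφ h9.symm

/-- the conclusion of the box -/
def Cc (l : ℕ) (M : Ideal AlgInt) (B : Set (IrrCharacter K)) (P : Subgroup K) (b : Set (IrrCharacter (centralizer (P : Set K))))
    (D : Subgroup K) : Prop :=
  ∃ D₁, IsDefectGroup l M B D₁ ∧ D ≤ D₁ ∧ (D ≠ D₁ → ∃ n ∈ D₁, n ∉ centralizer (D : Set K) ∧ n ^ l ∈ D ∧
    n ∈ normalizer (D : Set K) ∧ ∃ c ∈ centralizer (D : Set K), n * c ∈ normalizer (P : Set K) ∧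
      n * c ∉ centralizer (P : Set K) ∧ Stab (centralizer (P : Set K)).subtype b (n * c))

theorem Cc.conj {B : Set (IrrCharacter K)} {b : Set (IrrCharacter (centralizer (P : Set K)))} {D : Subgroup K}
    (h : Cc l M B P b D) (x : centralizer (P : Set K)) : Cc l M B P b (D.map (MulAut.conj (x : K)).toMonoidHom) := by
  obtain ⟨D₁, h1, h2, h3⟩ := h
  refine ⟨_, isDefectGroup_conj h1 x, map_mono h2, fun h4 => ?_⟩
  obtain ⟨g, g1, g2, g3, g4, c, c1, c2, c3, c4⟩ := h3 fun h5 => h4 (by rw [h5])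
  have h5 : (x : K) ∈ normalizer (P : Set K) := centralizer_le_normalizer _ x.2
  refine ⟨_, ⟨g, g1, rfl⟩, ?_, ⟨_, g3, map_pow _ _ _⟩, ?_, MulAut.conj (x : K) c, ?_, ?_⟩
  · rwa [H649.centralizer_map, mem_map_iff_mem (MulEquiv.injective _)]
  · rw [H649.normalizer_map]
    exact ⟨g, g4, rfl⟩
  · rw [H649.centralizer_map]
    exact ⟨c, c1, rfl⟩
  rw [show (MulAut.conj (x : K)).toMonoidHom g * MulAut.conj (x : K) c = x * (g * c) * (x : K)⁻¹ from (map_mul _ g c).symm]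
  refine ⟨mul_mem (mul_mem h5 c2) (inv_mem h5), ?_, fun ψ hψ ψ' h6 => c4 ψ hψ ψ' fun y y' h7 => ?_⟩
  · rwa [Subgroup.mul_mem_cancel_right _ (inv_mem x.2), Subgroup.mul_mem_cancel_left _ x.2]
  · rw [← irr_conj ψ'.2 y' x, ← irr_conj ψ.2 y x]
    refine h6 _ _ ?_
    simp only [map_mul, map_inv, h7, coe_subtype]
    group

/-- the end of the proof -/
theorem fin (hM : IsPModular l M) (h : Fr l r m n N K α) (hP : IsPGroup r P) {D : Subgroup K}
    (hD : D ≤ centralizer (P : Set K)) (hs : StS α D) (hab : BK.Ab D) {b : Set (IrrCharacter (centralizer (P : Set K)))}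
    {θ : centralizer (P : Set K) → ℂ} (hθ : TO.Can l M b (D.subgroupOf _) θ) [Fintype (centralizer (D : Set K))]
    [Fintype (Df.Lo (centralizer (P : Set K)) D)] {η : IrrCharacter (centralizer (D : Set K))}
    (hη : St hs.cen.res (η : centralizer (D : Set K) → ℂ)) {e s}
    (I : IsoD l r hs.cen.res ((Df.jo _ D).codRestrict _ fun k => Df.jo_mem k hD) (P.subgroupOf _) (TO.Can.root M _ θ)
      (blockOf M (η : centralizer (D : Set K) → ℂ)) e s) {ξ : IrrCharacter K}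
    (hu : Up l M (centralizer (D : Set K)).subtype η ξ) : Cc l M (blockOf M (ξ : K → ℂ)) P b D := by
  classical
  have := isPrime_of_isPModular hM
  have : Fact l.Prime := ⟨h.lp⟩
  have : Fact r.Prime := ⟨h.rp⟩
  have hp : IsPGroup l D := hθ.pg.of_equiv (subgroupOfEquivOfLe hD)
  have hDD : D ≤ centralizer (D : Set K) := fun x hx y hy => hab y hy x hx
  have hPD : P ≤ centralizer (D : Set K) := le_centralizer_iff.1 hD
  have hf := isPBlock_blockOf (M := M) η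
  obtain ⟨B, h2, -⟩ := H644.existsUnique_isBrauerPairOf hM (⟨hp, hf⟩ : IsBrauerPair l M D _)
  obtain ⟨χ, h3⟩ := isPBlock_nonempty h2.2.1
  obtain rfl : B = blockOf M (ξ : K → ℂ) := isPBlock_eq_of_sameBlock h2.2.1 ⟨ξ, rfl⟩ h3 (mem_blockOf_self ξ) (boxUp.uniq hM
    (boxUp.ind ((H649.isBrauerPairOf_iff_isInducedBlock hM h2.2.1 hp hf).1 h2) η (mem_blockOf_self η) χ h3) hu)
  obtain ⟨D₁, f, hmax, hle⟩ := H644.exists_maximal_above hM h2
  have hDP : D ≤ D₁ := H649.SubpairLE.le hle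
  refine ⟨D₁, S4659.result l M hM _ D₁ f hmax, hDP, fun hne => ?_⟩
  obtain ⟨g, g1, g2, g3, g4⟩ := Df.ex_norm hmax.1.1.1 hDP hne
  have g5 : g ∉ centralizer (D : Set K) := fun g5 => by
    obtain ⟨E, h4, h5⟩ := H649.exists_centralizer_defect hM hmax.1.1 hle
    have h6 : D.subgroupOf (centralizer (D : Set K)) = E := eq_of_le_of_card_ge (cen_le_defect hM hf h4
      (fun x hx => mem_center_iff.2 fun y => Subtype.ext (y.2 x hx).symm) hp.comap_subtype) (by
        rw [S0908.result l M hM _ hf E h4, defect_eq hM hθ.he hf I, ← S0908.result l M hM _ hθ.he _ hθ.hdef,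
          Nat.card_congr (subgroupOfEquivOfLe hθ.ab).toEquiv, Nat.card_congr (subgroupOfEquivOfLe hD).toEquiv,
          Nat.card_congr (subgroupOfEquivOfLe hDD).toEquiv])
    exact g3 (h6.ge (h5 (mem_subgroupOf.2 ⟨g1, g5⟩ : (⟨g, g5⟩ : centralizer (D : Set K)) ∈ (D₁ ⊓ centralizer (D : Set K)).subgroupOf _)))
  obtain ⟨g6, g7⟩ := H649.stabilizes_of_mem hM hmax.1.1 hle g1 g2
  obtain ⟨η', h4, h5⟩ := g7 (e hθ.chr) (I.img.ge ⟨_, hθ.chr_mem, rfl⟩)
  obtain ⟨x, h6, φ, h7, h8⟩ := loc (P := P.subgroupOf _) (h.sub hs.cen.emb) hP.comap_subtype (Df.cod_inj _) (by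
      ext y
      rw [Start.cen_sub hPD]
      exact ⟨fun ⟨z, hz⟩ => (congrArg Subtype.val hz : (z.1 : K) = y) ▸ z.1.2, fun hy =>
        (Df.exists_jo y.2 hy).imp fun _ hz => Subtype.ext hz⟩)
    (boxSt.blk (h.toGl.sub hs.cen.emb) hM η hη) I ((centralizer (D : Set K)).normalizerMonoidHom ⟨g, g6⟩) hθ.chr_mem (by
      rwa [show H649.irrMap _ _ = η' from Subtype.ext (funext fun y => (h5 _ _ (congrArg Subtype.val
        (MulEquiv.apply_symm_apply ((centralizer (D : Set K)).normalizerMonoidHom ⟨g, g6⟩) y)).symm).symm)])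
  have h9 : (x : K) * g ∈ normalizer (P : Set K) := mem_normalizer_fintype fun a ha => by
    have h9 : (⟨_, _⟩ : centralizer (D : Set K)) ∈ P.subgroupOf _ := h6.le ⟨⟨a, hPD ha⟩, ha, rfl⟩
    simpa [mem_subgroupOf, mul_assoc] using h9
  have h10 : (x : K) * g ∈ normalizer (D : Set K) := mul_mem (centralizer_le_normalizer _ x.2) g2
  obtain ⟨ρ, hρ⟩ := exists_aut (subtype_injective _) (range_subtype _) h9
  have h11 : ∀ y, ρ y ∈ D.subgroupOf _ ↔ y ∈ D.subgroupOf _ := fun y => by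
    rw [mem_subgroupOf, mem_subgroupOf, show (ρ y : K) = _ from hρ y]
    exact (mem_normalizer_iff.1 h10 _).symm
  have h12 : StS ρ _ := TO.Cn.Ce_iff (TO.Cn.map_eq_of_iff h11)
  have h13 := h8 h12.res fun y => Subtype.ext ((hρ y).trans (by simp [mul_assoc]; rfl))
  have h14 : φ = hθ.chr := hθ.eq_chr h7 fun d hd => by
    obtain ⟨d, rfl⟩ := h12.res.surjective d
    rw [h13, ← map_one h12.res, h13]
    exact hθ.triv _ ((h11 _).1 hd)
  have h15 : ρ ∈ TO.LA (D.subgroupOf _) θ := ⟨h11, fun y => by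
    by_cases hy : y ∈ TO.Ce (D.subgroupOf _)
    · exact (h14 ▸ h13 :) ⟨y, hy⟩
    · rw [hθ.zero y hy, hθ.zero _ (mt (h12 y).1 hy)]⟩
  refine ⟨g, g1, g5, g4, g2, g⁻¹ * x * g, by simpa using (mem_normalizer_iff.1 (inv_mem g6) _).1 x.2, ?_⟩
  rw [show g * (g⁻¹ * x * g) = x * g by group]
  refine ⟨h9, fun h16 => g5 ?_, fun ψ hψ ψ' h16 => TO.Cn.coe_mem_Fn.1 ((hθ.le_Stab h15 _).1 ?_)⟩
  · have h17 : (⟨_, h16⟩ : centralizer (P : Set K)) ∈ TO.In (D.subgroupOf _) θ := by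
      rwa [show ρ = MulAut.conj ⟨_, h16⟩ from MulEquiv.ext fun y => Subtype.ext (hρ y)] at h15
    have := TO.Cn.normal_Ce (D := D.subgroupOf (centralizer (P : Set K))) (θ := θ)
    have h18 := (Start.cen_sub hD _).1 (pow_index_mem ((TO.Ce (D.subgroupOf _)).subgroupOf _) (⟨_, h17⟩ : TO.In _ θ))
    have h19 : ∀ y : normalizer (D : Set K), D.normalizerMonoidHom y = 1 ↔ (y : K) ∈ centralizer (D : Set K) := fun y => by
      rw [← MonoidHom.mem_ker, normalizerMonoidHom_ker, mem_subgroupOf]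
    refine (h19 ⟨g, g2⟩).1 ((pow_eq_one_iff_of_coprime (h.lp.coprime_iff_not_dvd.2 hθ.idx)).1 ⟨?_, ?_⟩)
    · rw [← map_pow, h19]
      exact hDD g4
    · rw [← one_mul (D.normalizerMonoidHom _)]
      nth_rw 1 [← (h19 ⟨x, centralizer_le_normalizer _ x.2⟩).2 x.2]
      rw [← map_mul, ← map_pow, h19]
      exact h18
  · rw [show (ψ' : centralizer (P : Set K) → ℂ) ∘ ρ = ψ from funext fun y => h16 _ _ (hρ y)]
    exact TO.Cn.coe_mem_Fn.2 hψ

end D2

open Cfsg Subgroup Cfsg.Agent.Blocks.Basic Cfsg.Agent.Blocks.Local D2 in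
/-- **[Def2]** -/
theorem boxDef2_of (hI : BoxIso) (hMo : BoxMono) (hS : BoxSec2) (hB : BoxBC2) : BoxDef2 := by
  intro l r m n N K _ _ α M P _ h hM hP hs hk ξ μ hξ hx h0 D' hD' hb hab
  classical
  have := isPrime_of_isPModular hM
  have : Fact l.Prime := ⟨h.lp⟩
  have : Fact r.Prime := ⟨h.rp⟩
  have e := hs.cen.emb
  obtain ⟨E, h1, h2⟩ := boxSt.dfg (h.toGl.sub e) l M hM μ (con_rs boxSt h hP hs e (range_subtype _) hξ h0)
  obtain ⟨x, h3⟩ := H644.exists_conj_of_isDefectGroup hM (isPBlock_blockOf μ) h1 hb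
  obtain ⟨D, hD, rfl⟩ : ∃ D ≤ centralizer (P : Set K), D.subgroupOf _ = E :=
    ⟨_, map_subtype_le E, comap_map_eq_self_of_injective (subtype_injective _) _⟩
  obtain rfl : D.map (MulAut.conj (x : K)).toMonoidHom = D' := by
    rw [← map_subgroupOf_eq_of_le hD', ← h3, map_map, ← map_subgroupOf_eq_of_le hD, map_map, map_subgroupOf_eq_of_le hD]
    rfl
  refine Cc.conj ?_ x
  replace hab : KM.BK.Ab D := fun a ha b hb => (MulAut.conj (x : K)).injective (by
    rw [map_mul, map_mul]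
    exact hab _ ⟨a, ha, rfl⟩ _ ⟨b, hb, rfl⟩)
  have hp : IsPGroup l D := (isPGroup_of_isDefectGroup h1).of_equiv (subgroupOfEquivOfLe hD)
  have hsD : StS α D := map_subgroupOf_eq_of_le hD ▸ h2.map e
  have hf := boxSt.grp h.toGl D hp hsD
  obtain ⟨θ, hθ⟩ := TO.boxCAN0 _ l M _ _ hM (isPBlock_blockOf μ) h1 fun a ha b hb => Subtype.ext (hab b hb a ha)
  have hC : StS α (centralizer (Zc l P : Set K)) := ((zs_st _).map e).cen
  have a1 : Zc l P ≤ D := map_subgroupOf_eq_of_le hD ▸ map_mono (cen_le_defect hM (isPBlock_blockOf μ) h1 zs_le zs_p)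
  have a2 : centralizer (P : Set K) ≤ centralizer (Zc l P : Set K) := by
    rintro y hy _ ⟨z, hz, rfl⟩
    exact (congrArg Subtype.val (mem_center_iff.1 hz.1 ⟨y, hy⟩)).symm
  have a3 : centralizer (D : Set K) ≤ centralizer (Zc l P : Set K) := centralizer_le a1
  have a4 := (h.bg.ab' hP).trans a2
  have a5 : P ≤ centralizer (D : Set K) := le_centralizer_iff.1 hD
  have a6 := map_subgroupOf_eq_of_le a4
  have a7 : ∀ {T : Subgroup K}, T ≤ centralizer (Zc l P : Set K) → P ≤ T →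
      normalizer ((P.subgroupOf T : Subgroup T) : Set T) ≤ centralizer ((P.subgroupOf T : Subgroup T) : Set T) :=
    fun h4 h5 g hg => (Start.cen_sub h5 g).2 (hk g ((subgroupOf_normalizer_eq h5).ge hg) (h4 g.2))
  have a8 : ∀ {A T : Subgroup K} (h4 : centralizer (A : Set K) ≤ T), A ≤ T →
      (inclusion h4).range = centralizer ((A.subgroupOf T : Subgroup T) : Set T) := fun h4 h5 => by
    rw [inclusion_range]
    exact Subgroup.ext fun y => (Start.cen_sub h5 y).symm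
  have e1 : Emb (inclusion a2) hs.cen.res hC.res := ⟨inclusion_injective _, fun _ => rfl⟩
  have e2 : Emb (inclusion a3) hsD.cen.res hC.res := ⟨inclusion_injective _, fun _ => rfl⟩
  obtain ⟨η, μ', b1, b2, b3, b4, b5⟩ := hB h hM hP.comap_subtype (hs.comap hC.emb) hC.emb e1 (P := P.subgroupOf _) (μ := μ)
    (by rw [a6]; exact range_subtype _) (range_subtype _) hξ (by rwa [a6]) (by rw [a6]; exact h0)
  have h' := h.sub hC.emb
  obtain ⟨f, s, I⟩ := hI h' hM hP.comap_subtype (hs.comap hC.emb) e1 (a8 a2 a4) (a7 le_rfl a4) b1 b4 b5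
  have a9 : ((Df.jo _ D).codRestrict _ fun k => Df.jo_mem k hD).range =
      centralizer ((P.subgroupOf (centralizer (D : Set K)) : Subgroup _) : Set _) := by
    ext y
    rw [Start.cen_sub a5]
    exact ⟨fun ⟨z, hz⟩ => (congrArg Subtype.val hz : (z.1 : K) = y) ▸ z.1.2, fun hy =>
      (Df.exists_jo y.2 hy).imp fun _ hz => Subtype.ext hz⟩
  have a10 : P.subgroupOf _ ≤ (inclusion a3).range := fun y hy => ⟨⟨y, a5 hy⟩, rfl⟩
  have a11 : KM.BK.Ab (D.subgroupOf (centralizer (Zc l P : Set K))) := fun a ha b hb => Subtype.ext (hab a ha b hb)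
  obtain ⟨ζ, φ, c1, c2, c3, c4⟩ := descend hS hM h' hP.comap_subtype (a8 a2 a4) b1 I hp.comap_subtype (hsD.comap hC.emb) a11 e2
    (a8 a3 (hD.trans a2)) a10 (subtype_injective _) (Df.cod_inj fun k => Df.jo_mem k hD) (fun _ => rfl) a9
    (boxUp.ind hθ.ind _ hθ.chr_mem μ' b2)
  have hL : StS hs.cen.res (Df.Lo (centralizer (P : Set K)) D) := h2.cen
  obtain ⟨f', s', I'⟩ := hI (h.sub hsD.cen.emb) hM hP.comap_subtype (hs.comap hsD.cen.emb) (β := hL.res)
    ⟨Df.cod_inj fun k => Df.jo_mem k hD, fun _ => rfl⟩ a9 (a7 a3 a5) c1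
    (monoA hMo hM _ rfl h' e2 hp.comap_subtype (fun y hy => Subtype.ext (hf y hy)) a11 (a8 a3 (hD.trans a2)) a10 b1 c1 c2 b4) c4
  rw [← blockOf_eq_of_sameBlock c3] at I'
  exact D2.fin hM h hP hD hsD hab hθ c1 I' (boxUp.trans hM e2.inj c2 (subtype_injective _) b3)

end Cfsg.Agent.BZ.Lab
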