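import Cfsg.Agent.BZ.Lab.Def2
import Cfsg.Agent.BZ.Lab.Iso
import Cfsg.Agent.BZ.Lab.Mono
import Cfsg.Agent.BZ.Lab.BC2
import Cfsg.Agent.BZ.Lab.Main2

/-!
# BZ / Lab: the second engine, unconditional (helper33)
-/

namespace Cfsg.Agent.BZ.Lab

theorem boxBC2 : BoxBC2 := boxBC2_of boxMono

theorem boxDef2 : BoxDef2 := boxDef2_of boxIso boxMono boxSec2 boxBC2

theorem boxMain2 : BoxMain2 := boxMain2_of boxIso boxMono boxSec2 boxDef2

end Cfsg.Agent.BZ.Lab
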